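import Cfsg.Agent.H169.ExcOrd

/-!
# TEAM RV, R2: the 7-part of the order of `E₇(q)`, `7 ∤ q (q² - 1)` (helper553)
-/

set_option autoImplicit false

namespace Cfsg.Agent.H553.RV.E7B

open Cfsg.Lie Cfsg.Agent.H169.ExcOrd

local instance fact7 : Fact (Nat.Prime 7) := ⟨by norm_num⟩

theorem seven_dvd_six {q : ℕ} (h : ¬ 7 ∣ q) : 7 ∣ q ^ 6 - 1 := by
  have h1 : (q : ZMod 7) ≠ 0 := fun h1 => h ((ZMod.natCast_eq_zero_iff q 7).1 h1)
  have h2 : (q : ZMod 7) ^ (7 - 1) = 1 := ZMod.pow_card_sub_one_eq_one h1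
  have hq : 1 ≤ q := Nat.one_le_iff_ne_zero.2 (by rintro rfl; exact h (dvd_zero 7))
  have h3 : ((q ^ 6 - 1 : ℕ) : ZMod 7) = 0 := by
    rw [Nat.cast_sub (Nat.one_le_pow _ _ hq)]
    push_cast
    rw [show (6 : ℕ) = 7 - 1 by norm_num, h2, sub_self]
  exact (ZMod.natCast_eq_zero_iff _ _).1 h3

theorem not_seven {q d : ℕ} (h7 : ¬ 7 ∣ q ^ 2 - 1) (h6 : 7 ∣ q ^ 6 - 1) (hd : Nat.gcd d 6 = 2) : ¬ 7 ∣ q ^ d - 1 := by
  intro h
  apply h7
  have h1 := Nat.dvd_gcd h h6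
  rw [Nat.pow_sub_one_gcd_pow_sub_one, hd] at h1
  exact h1

variable {F : Type*} [Field F] [Fintype F] {q a : ℕ}

theorem E7_seven (hK : Fintype.card F = q) (h7q : ¬ 7 ∣ q) (h7 : ¬ 7 ∣ q ^ 2 - 1) (ha : 7 ^ a ∣ q ^ 6 - 1)
    (ha' : ¬ 7 ^ (a + 1) ∣ q ^ 6 - 1) : ¬ 7 ^ (3 * a + 1) ∣ Nat.card ↥(chevE7.group F) := by
  have hq := two_le_card hK
  have h6 := seven_dvd_six h7q
  have hL : ∀ d ∈ [2, 6, 8, 10, 12, 14, 18], d ≠ 0 := by decide
  have h := Cfsg.Agent.S1064.result (F := F) hK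
  have hP : padicValNat 7 (P q [2, 6, 8, 10, 12, 14, 18]) = 3 * a := by
    rw [val_P hq (fun d => if d = 6 ∨ d = 12 ∨ d = 18 then a else 0) (L := [2, 6, 8, 10, 12, 14, 18])]
    · simp
      ring
    · have ev : padicValNat 7 (q ^ 6 - 1) = a := val_eq ha ha'
      have hx : 2 ≤ q ^ 6 := le_trans hq (Nat.le_self_pow (by norm_num) q)
      have e12 : padicValNat 7 (q ^ 12 - 1) = a := by
        have h1 := val_pow_sub (s := 7) (by norm_num) hx h6 (m := 2) (by norm_num)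
        rw [← pow_mul] at h1
        rw [show (12 : ℕ) = 6 * 2 by norm_num, h1, ev, val_zero (by norm_num), add_zero]
      have e18 : padicValNat 7 (q ^ 18 - 1) = a := by
        have h1 := val_pow_sub (s := 7) (by norm_num) hx h6 (m := 3) (by norm_num)
        rw [← pow_mul] at h1
        rw [show (18 : ℕ) = 6 * 3 by norm_num, h1, ev, val_zero (by norm_num), add_zero]
      intro d hd
      refine ⟨hL d hd, ?_⟩
      simp only [List.mem_cons, List.not_mem_nil, or_false] at hd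
      rcases hd with rfl | rfl | rfl | rfl | rfl | rfl | rfl
      · simpa using val_zero h7
      · simpa using ev
      · simpa using val_zero (not_seven h7 h6 (d := 8) (by norm_num))
      · simpa using val_zero (not_seven h7 h6 (d := 10) (by norm_num))
      · simpa using e12
      · simpa using val_zero (not_seven h7 h6 (d := 14) (by norm_num))
      · simpa using e18
  have h1 := P_ne hq hL
  have h2 : q ^ 63 ≠ 0 := pow_ne_zero _ (by omega)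
  have hfull : Nat.gcd 2 (q - 1) * Nat.card ↥(chevE7.group F) = q ^ 63 * P q [2, 6, 8, 10, 12, 14, 18] := by
    rw [h]; simp [P]; ring
  have h3 : Nat.gcd 2 (q - 1) * Nat.card ↥(chevE7.group F) ≠ 0 := by rw [hfull]; exact mul_ne_zero h2 h1
  have h4 := left_ne_zero_of_mul h3
  have h5 := right_ne_zero_of_mul h3
  have hval := congrArg (padicValNat 7) hfull
  rw [padicValNat.mul h4 h5, padicValNat.mul h2 h1, hP, val_zero (fun h => h7q ((by norm_num : Nat.Prime 7).dvd_of_dvd_pow h)),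
    zero_add] at hval
  exact not_dvd_of_val h5 (by omega)

/-- `5` divides the order -/
theorem E7_five_dvd (hK : Fintype.card F = q) (h5 : 5 ∣ q ^ 2 + 1) : 5 ∣ Nat.card ↥(chevE7.group F) := by
  have hq := two_le_card hK
  have h := Cfsg.Agent.S1064.result (F := F) hK
  have h8 : 5 ∣ q ^ 8 - 1 := by
    have h1 : q ^ 2 + 1 ∣ q ^ 8 - 1 := by
      refine ⟨(q ^ 2 - 1) * (q ^ 4 + 1), ?_⟩
      zify [Nat.one_le_pow 8 q (by omega), Nat.one_le_pow 2 q (by omega)]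
      ring
    exact h5.trans h1
  have h1 : 5 ∣ Nat.gcd 2 (q - 1) * Nat.card ↥(chevE7.group F) := by
    rw [h]
    exact (h8.mul_left (q ^ 63 * (q ^ 2 - 1) * (q ^ 6 - 1))).trans ⟨(q ^ 10 - 1) * (q ^ 12 - 1) * (q ^ 14 - 1) * (q ^ 18 - 1), by ring⟩
  rcases (Nat.Prime.dvd_mul (by norm_num : Nat.Prime 5)).1 h1 with h2 | h2
  · exfalso
    have h3 := h2.trans (Nat.gcd_dvd_left 2 (q - 1))
    have := Nat.le_of_dvd (by norm_num) h3
    omega
  · exact h2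

theorem cases_eps (h7q : ¬ 7 ∣ q) (h7 : ¬ 7 ∣ q ^ 2 - 1) (hq : 2 ≤ q) (ha : 7 ^ a ∣ q ^ 6 - 1) :
    ∃ ε : ℤ, (ε = 1 ∨ ε = -1) ∧ ((7 : ℤ) ^ a ∣ (ε * q) ^ 2 + ε * q + 1) := by
  have hfac : ((q ^ 6 - 1 : ℕ) : ℤ) = ((q : ℤ) ^ 2 - 1) * (((q : ℤ) ^ 2 + q + 1) * ((q : ℤ) ^ 2 - q + 1)) := by
    rw [Nat.cast_sub (Nat.one_le_pow _ _ (by omega))]
    push_cast
    ring
  have h1 : (7 : ℤ) ^ a ∣ ((q : ℤ) ^ 2 - 1) * (((q : ℤ) ^ 2 + q + 1) * ((q : ℤ) ^ 2 - q + 1)) := by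
    rw [← hfac]
    exact_mod_cast ha
  have hp7 : Prime (7 : ℤ) := by exact_mod_cast Nat.prime_iff_prime_int.1 (by norm_num : Nat.Prime 7)
  have h2 : ¬ (7 : ℤ) ∣ (q : ℤ) ^ 2 - 1 := by
    intro h
    apply h7
    have h3 : (7 : ℤ) ∣ ((q ^ 2 - 1 : ℕ) : ℤ) := by
      rw [Nat.cast_sub (Nat.one_le_pow _ _ (by omega))]
      push_cast
      exact h
    exact_mod_cast h3
  have h3 : (7 : ℤ) ^ a ∣ ((q : ℤ) ^ 2 + q + 1) * ((q : ℤ) ^ 2 - q + 1) :=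
    (IsCoprime.pow_left ((Prime.coprime_iff_not_dvd hp7).2 h2)).dvd_of_dvd_mul_left h1
  by_cases h4 : (7 : ℤ) ∣ (q : ℤ) ^ 2 - q + 1
  · have h5 : ¬ (7 : ℤ) ∣ (q : ℤ) ^ 2 + q + 1 := by
      intro h5
      have h6 := dvd_sub h5 h4
      have h7 : ((q : ℤ) ^ 2 + q + 1) - ((q : ℤ) ^ 2 - q + 1) = 2 * q := by ring
      rw [h7] at h6
      rcases hp7.dvd_or_dvd h6 with h8 | h8
      · norm_num at h8
      · exact h7q (by exact_mod_cast h8)
    refine ⟨-1, Or.inr rfl, ?_⟩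
    have h6 := (IsCoprime.pow_left ((Prime.coprime_iff_not_dvd hp7).2 h5) (m := a)).dvd_of_dvd_mul_left h3
    have h7 : (-1 * (q : ℤ)) ^ 2 + -1 * q + 1 = (q : ℤ) ^ 2 - q + 1 := by ring
    rw [h7]
    exact h6
  · refine ⟨1, Or.inl rfl, ?_⟩
    have h6 := (IsCoprime.pow_left ((Prime.coprime_iff_not_dvd hp7).2 h4) (m := a)).dvd_of_dvd_mul_right h3
    have h7 : (1 * (q : ℤ)) ^ 2 + 1 * q + 1 = (q : ℤ) ^ 2 + q + 1 := by ring
    rw [h7]
    exact h6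

end Cfsg.Agent.H553.RV.E7B
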