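import Cfsg.Agent.H571.DExtD

/-!
# `D_π` for extensions of a group with a Hall `π`-subgroup `A ⋊ R`, `A` abelian, `R` an `r`-group (helper553)
-/

set_option autoImplicit false

namespace Cfsg.Agent.H553.RV

open Subgroup Cfsg Cfsg.Agent.H988.CPi Cfsg.Agent.Solvable.SZ Cfsg.Agent.H571.DExt
open scoped Pointwise

universe u

section tools

variable {τ π : Set ℕ} {G : Type u} [Group G]

theorem card_sup_of_le_normalizer {Y A : Subgroup G} (h : Y ≤ normalizer (A : Set G)) :
    Nat.card (Y ⊔ A : Subgroup G) = Nat.card A * A.relIndex Y := by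
  set M := Y ⊔ A with hM
  have hYM : A ≤ M := le_sup_right
  have hn : (A.subgroupOf M).Normal :=
    (normal_subgroupOf_iff_le_normalizer hYM).mpr (sup_le h le_normalizer)
  have h1 : Y.subgroupOf M ⊔ A.subgroupOf M = ⊤ := by
    rw [← Subgroup.subgroupOf_sup le_sup_left hYM]
    exact Subgroup.subgroupOf_self _
  have h2 := relIndex_sup_right (Y.subgroupOf M) (A.subgroupOf M)
  rw [h1, relIndex_top_right] at h2
  have h3 : Nat.card M = Nat.card A * (A.subgroupOf M).index := by
    rw [← card_subgroupOf _ _ hYM, card_mul_index]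
  rw [h3, h2, relIndex_subgroupOf le_sup_left]

/-- a `τ`-subgroup which normalises a Hall `τ`-subgroup lies in it -/
theorem le_hall [Finite G] {X A Y : Subgroup G} (hA : PiN' τ (A.relIndex X)) (hAX : A ≤ X) (hYX : Y ≤ X)
    (hY : PiN τ (Nat.card Y)) (hn : Y ≤ normalizer (A : Set G)) : Y ≤ A := by
  have h1 := card_sup_of_le_normalizer hn
  have h2 : Nat.card (Y ⊔ A : Subgroup G) = Nat.card A * A.relIndex (Y ⊔ A) := by
    have := relIndex_mul_relIndex ⊥ A (Y ⊔ A) bot_le le_sup_right
    rw [relIndex_bot_left, relIndex_bot_left] at this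
    exact this.symm
  have h3 : A.relIndex (Y ⊔ A) = A.relIndex Y := Nat.eq_of_mul_eq_mul_left Nat.card_pos (h2.symm.trans h1)
  have h4 : A.relIndex (Y ⊔ A) = 1 := by
    apply eq_one_of_both (π := τ)
    · rw [h3]; exact hY.of_dvd (relIndex_dvd_card _ _)
    · refine hA.of_dvd ?_
      exact ⟨_, (relIndex_mul_relIndex A (Y ⊔ A) X le_sup_right (sup_le hYX hAX)).symm⟩
  exact le_sup_left.trans (relIndex_eq_one.mp h4)

theorem piN_zpowers [Finite G] {y : G} {p : ℕ} (hp : p.Prime) (hy : orderOf y = p) (hpτ : p ∈ τ) :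
    PiN τ (Nat.card (zpowers y)) := by
  intro q hq hd
  rw [Nat.card_zpowers, hy] at hd
  rwa [(Nat.prime_dvd_prime_iff_eq hq hp).mp hd]

theorem mem_sup_of_le_normalizer {H K : Subgroup G} (h : H ≤ normalizer (K : Set G)) {x : G} (hx : x ∈ H ⊔ K) :
    ∃ a ∈ H, ∃ b ∈ K, a * b = x := by
  let L : Subgroup G :=
    { carrier := {x | ∃ a ∈ H, ∃ b ∈ K, a * b = x}
      mul_mem' := by
        rintro _ _ ⟨a, ha, b, hb, rfl⟩ ⟨c, hc, d, hd, rfl⟩
        refine ⟨a * c, H.mul_mem ha hc, c⁻¹ * b * c * d, K.mul_mem ?_ hd, by group⟩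
        have := (mem_normalizer_iff.mp (h (H.inv_mem hc)) b).mp hb
        simpa using this
      one_mem' := ⟨1, H.one_mem, 1, K.one_mem, by simp⟩
      inv_mem' := by
        rintro _ ⟨a, ha, b, hb, rfl⟩
        refine ⟨a⁻¹, H.inv_mem ha, a * b⁻¹ * a⁻¹, ?_, by group⟩
        exact (mem_normalizer_iff.mp (h ha) b⁻¹).mp (K.inv_mem hb) }
  have h1 : H ⊔ K ≤ L := sup_le (fun a ha => ⟨a, ha, 1, K.one_mem, by simp⟩) (fun b hb => ⟨1, H.one_mem, b, hb, by simp⟩)
  exact h1 hx

end tools

/-- every `π`-subgroup of `X` normalises an abelian Hall `τ`-subgroup of `X` -/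
def WS (π τ : Set ℕ) {G : Type*} [Group G] (X : Subgroup G) : Prop :=
  ∀ K ≤ X, PiN π (Nat.card K) → ∃ A ≤ X, PiN τ (Nat.card A) ∧ PiN' τ (A.relIndex X) ∧
    (∀ a ∈ A, ∀ b ∈ A, a * b = b * a) ∧ K ≤ normalizer (A : Set G)


section core

variable {τ π : Set ℕ}

theorem comm_nilpotent {G : Type u} [Group G] (A : Subgroup G) (h : ∀ a ∈ A, ∀ b ∈ A, a * b = b * a) :
    Group.IsNilpotent A := by
  have : ∀ a b : A, a * b = b * a := fun a b => Subtype.ext (h a a.2 b b.2)
  let inst : CommGroup A := { (inferInstance : Group A) with mul_comm := this }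
  exact CommGroup.isNilpotent

theorem cpi_of_comm {G : Type u} [Group G] [Finite G] {X A : Subgroup G} (hAX : A ≤ X) (hA : PiN τ (Nat.card A))
    (hA' : PiN' τ (A.relIndex X)) (h : ∀ a ∈ A, ∀ b ∈ A, a * b = b * a) : IsCPiGroup τ X := by
  have h1 : IsPiHall τ (A.subgroupOf X) := by
    refine ⟨?_, hA'⟩
    have : PiN τ (Nat.card (A.subgroupOf X)) := by rw [card_subgroupOf _ _ hAX]; exact hA
    exact this
  refine (dom_of_nilpotent h1 (comm_nilpotent _ ?_)).cpi
  intro a ha b hb
  exact Subtype.ext (h a ha b hb)

/-- quotient step -/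
theorem ws_quotient {G : Type u} [Group G] [Finite G] {X Y : Subgroup G} [Y.Normal] (hYX : Y ≤ X) (hτπ : τ ⊆ π)
    (hY : PiN τ (Nat.card Y)) (h : WS π τ X) : WS π τ (X.map (QuotientGroup.mk' Y)) := by
  intro K hK hKπ
  have hcX : (X.map (QuotientGroup.mk' Y)).comap (QuotientGroup.mk' Y) = X := by
    rw [comap_map_eq, QuotientGroup.ker_mk', sup_of_le_left hYX]
  obtain ⟨A, hAX, hA, hA', hcomm, hn⟩ := h (K.comap (QuotientGroup.mk' Y))
    ((comap_mono hK).trans hcX.le)
    (by rw [card_comap_mk]; exact PiN.mul (fun p hp hd => hτπ (hY p hp hd)) hKπ)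
  refine ⟨A.map (QuotientGroup.mk' Y), map_mono hAX, hA.of_dvd (card_map_dvd _ _), ?_, ?_, ?_⟩
  · refine hA'.of_dvd ?_
    rw [← relIndex_comap, comap_map_eq, QuotientGroup.ker_mk']
    exact ⟨A.relIndex (A ⊔ Y), by
      rw [mul_comm]
      exact (relIndex_mul_relIndex A (A ⊔ Y) X le_sup_left (sup_le hAX hYX)).symm⟩
  · rintro _ ⟨a, ha, rfl⟩ _ ⟨b, hb, rfl⟩
    rw [← map_mul, ← map_mul, hcomm a ha b hb]
  · rw [← map_comap_eq_self_of_surjective (QuotientGroup.mk'_surjective Y) K]
    exact (map_mono hn).trans (le_normalizer_map _)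

theorem core (hτπ : τ ⊆ π) {r : ℕ} (hr : r.Prime) (hrπ : r ∈ π) (n : ℕ) :
    ∀ (G : Type u) [Group G] [Finite G] (X P : Subgroup G) [X.Normal], Nat.card X = n → WS π τ X →
      (∀ p : ℕ, p.Prime → p ∈ π → p ∣ Nat.card X → p ∈ τ ∨ p = r) → PiN π (Nat.card P) → P ⊔ X = ⊤ →
      Group.IsSolvable (G ⧸ X) →
      ∃ A ≤ X, PiN τ (Nat.card A) ∧ PiN' τ (A.relIndex X) ∧ P ≤ normalizer (A : Set G) := by
  induction n using Nat.strong_induction_on with
  | _ n ih =>
    intro G _ _ X P₀ hXn hn hW hprm hP₀ hP₀X hsol
    -- a maximal `π`-subgroup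
    obtain ⟨P, hP₀P, hP⟩ := Finite.exists_le_maximal (p := IsPiSubgroup π) (a := P₀) hP₀
    have hPX : P ⊔ X = ⊤ := top_le_iff.mp (hP₀X.symm.le.trans (sup_le_sup_right hP₀P X))
    suffices h : ∃ A ≤ X, PiN τ (Nat.card A) ∧ PiN' τ (A.relIndex X) ∧ P ≤ normalizer (A : Set G) by
      obtain ⟨A, h1, h2, h3, h4⟩ := h
      exact ⟨A, h1, h2, h3, hP₀P.trans h4⟩
    set Q := P ⊓ X with hQ
    have hQX : Q ≤ X := inf_le_right
    have hQπ : PiN π (Nat.card Q) := PiN.of_dvd hP.1 (card_dvd_of_le inf_le_left)
    have hPQ : P ≤ normalizer (Q : Set G) := by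
      rw [le_normalizer_iff]
      intro h hh k hk
      exact ⟨P.mul_mem (P.mul_mem hh hk.1) (P.inv_mem hh), hXn.conj_mem k hk.2 h⟩
    have hcor := piN'_normalizer_quot X hP inferInstance
    obtain ⟨A, hAX, hA, hA', hcomm, hQA⟩ := hW Q hQX hQπ
    set Y := Q ⊓ A with hY
    have hYτ : PiN τ (Nat.card Y) := hA.of_dvd (card_dvd_of_le inf_le_right)
    have hPY : P ≤ normalizer (Y : Set G) := by
      have key : ∀ p ∈ P, MulAut.conj p • Y ≤ Y := by
        intro p hp
        have h1 : MulAut.conj p • Y ≤ Q := by
          rintro _ ⟨y, hy, rfl⟩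
          exact ((mem_normalizer_iff.mp (hPQ hp)) y).mp hy.1
        refine le_inf h1 (le_hall hA' hAX (h1.trans hQX) ?_ (h1.trans hQA))
        rw [card_conj_smul]; exact hYτ
      rw [le_normalizer_iff]
      intro p hp y hy
      exact key p hp ⟨y, hy, rfl⟩
    have hYX : Y ≤ X := inf_le_left.trans hQX
    by_cases hY1 : Y = ⊥
    · -- `Q` is a Sylow `r`-subgroup of `X`
      have := Fact.mk hr
      have hQτ : ∀ p : ℕ, p.Prime → p ∣ Nat.card Q → p = r := by
        intro p hp hd
        rcases hprm p hp (hQπ p hp hd) (hd.trans (card_dvd_of_le hQX)) with h | h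
        · exfalso
          have := Fact.mk hp
          obtain ⟨y, hy⟩ := exists_prime_orderOf_dvd_card' (G := Q) p hd
          have hy' : orderOf (y : G) = p := by rw [Subgroup.orderOf_coe, hy]
          have h1 : zpowers (y : G) ≤ Q := by rw [zpowers_le]; exact y.2
          have h2 := le_hall hA' hAX (h1.trans hQX) (piN_zpowers hp hy' h) (h1.trans hQA)
          have h3 : (y : G) ∈ Y := ⟨y.2, h2 (mem_zpowers _)⟩
          rw [hY1, mem_bot] at h3
          rw [h3, orderOf_one] at hy'
          exact hp.one_lt.ne hy'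
        · exact h
      have hQr : PiN {r} (Nat.card Q) := fun p hp hd => hQτ p hp hd
      have hQrg : IsPGroup r Q := by
        rw [IsPGroup.iff_card]
        exact ⟨_, Nat.eq_prime_pow_of_unique_prime_dvd Nat.card_pos.ne' fun {p} hp hd => hQτ p hp hd⟩
      -- `Q` is Sylow in `X`
      have hQS : ¬ r ∣ Q.relIndex X := by
        have h1 : IsPGroup r (Q.subgroupOf X) := hQrg.comap_of_injective X.subtype X.subtype_injective
        obtain ⟨R, hR⟩ := h1.exists_le_sylow
        have h2 : Q ≤ (R : Subgroup X).map X.subtype := by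
          have := map_mono (f := X.subtype) hR
          rwa [subgroupOf_map_subtype, inf_of_le_left hQX] at this
        have h3 : IsPGroup r ((R : Subgroup X).map X.subtype) := R.isPGroup'.map _
        have h4 : Q = (R : Subgroup X).map X.subtype := by
          refine eq_of_normalizer_pi' (π := π) h2 (map_subtype_le _) h3.isNilpotent ?_ hcor
          obtain ⟨k, hk⟩ := IsPGroup.iff_card.mp h3
          intro q hq hqd
          rw [hk] at hqd
          rwa [(Nat.prime_dvd_prime_iff_eq hq hr).mp (hq.dvd_of_dvd_pow hqd)]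
        rw [h4, relIndex, subgroupOf, comap_map_eq_self_of_injective X.subtype_injective]
        exact R.not_dvd_index
      have hQS' : PiN' {r} (Q.relIndex X) := fun p _ hp => by rw [Set.mem_singleton_iff.mp hp]; exact hQS
      -- the first Frattini argument
      have hf1 := sup_normalizer X ⊤ A le_top hAX hA hA' (cpi_of_comm hAX hA hA' hcomm)
      rw [inf_top_eq] at hf1
      set N₀ := normalizer (A : Set G) with hN₀
      -- the second Frattini argument
      have hXMN : ∀ n ∈ N₀, ∃ x ∈ X ⊓ N₀, ∃ m ∈ normalizer (Q : Set G) ⊓ N₀, x * m = n := by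
        have hQX0 : Q.subgroupOf N₀ ≤ X.subgroupOf N₀ := subgroupOf_mono _ hQX
        have hS' : PiN' {r} ((Q.subgroupOf N₀).relIndex (X.subgroupOf N₀)) := by
          rw [← inf_subgroupOf_right X N₀, relIndex_subgroupOf inf_le_right]
          refine hQS'.of_dvd ⟨(X ⊓ N₀).relIndex X, ?_⟩
          exact (relIndex_mul_relIndex Q (X ⊓ N₀) X (le_inf hQX hQA) inf_le_left).symm
        have hS : PiN {r} (Nat.card (Q.subgroupOf N₀)) := by rw [card_subgroupOf _ _ hQA]; exact hQr
        have hC : IsCPiGroup {r} (X.subgroupOf N₀) := by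
          have h1 : IsPiHall {r} ((Q.subgroupOf N₀).subgroupOf (X.subgroupOf N₀)) := by
            refine ⟨?_, hS'⟩
            have : PiN {r} (Nat.card ((Q.subgroupOf N₀).subgroupOf (X.subgroupOf N₀))) := by
              rw [card_subgroupOf _ _ hQX0]; exact hS
            exact this
          have h2 : IsPGroup r ((Q.subgroupOf N₀).subgroupOf (X.subgroupOf N₀)) :=
            (hQrg.comap_of_injective N₀.subtype N₀.subtype_injective).comap_of_injective
              (X.subgroupOf N₀).subtype (X.subgroupOf N₀).subtype_injective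
          exact (dom_of_nilpotent h1 h2.isNilpotent).cpi
        have hf2 := sup_normalizer (X.subgroupOf N₀) ⊤ (Q.subgroupOf N₀) le_top hQX0 hS hS' hC
        rw [inf_top_eq] at hf2
        intro n hn
        have h1 : (⟨n, hn⟩ : N₀) ∈ X.subgroupOf N₀ ⊔ normalizer ((Q.subgroupOf N₀ : Subgroup N₀) : Set N₀) := by
          rw [hf2]; exact mem_top _
        obtain ⟨x, hx, m, hm, h2⟩ := (mem_sup_of_normal_left (s := X.subgroupOf N₀)).mp h1
        rw [mem_normalizer_iff] at hm
        refine ⟨x, ⟨hx, x.2⟩, m, ⟨mem_normalizer_iff.mpr fun q => ?_, m.2⟩, congrArg Subtype.val h2⟩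
        constructor
        · intro hq
          exact (hm ⟨q, hQA hq⟩).mp hq
        · intro hq
          have h3 : q ∈ N₀ := by
            have h4 := N₀.mul_mem (N₀.mul_mem (N₀.inv_mem m.2) (hQA hq)) m.2
            simpa [mul_assoc] using h4
          exact (hm ⟨q, h3⟩).mpr hq
      set M := normalizer (Q : Set G) ⊓ N₀ with hMd
      have hMX : M ⊔ X = ⊤ := by
        rw [← top_le_iff]
        intro g _
        have h1 : g ∈ X ⊔ N₀ := by rw [hf1]; exact mem_top _
        obtain ⟨x, hx, n, hn, rfl⟩ := mem_sup_of_normal_left.mp h1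
        obtain ⟨x', hx', m, hm, rfl⟩ := hXMN n hn
        rw [sup_comm, ← mul_assoc]
        exact mul_mem_sup (X.mul_mem hx hx'.1) hm
      have hXiP : X.relIndex P = X.index := by
        have := relIndex_sup_right P X
        rw [hPX, relIndex_top_right] at this
        exact this.symm
      have hXiM : X.relIndex M = X.index := by
        have := relIndex_sup_right M X
        rw [hMX, relIndex_top_right] at this
        exact this.symm
      have hXπ : PiN π X.index := by rw [← hXiP]; exact PiN.of_dvd hP.1 (relIndex_dvd_card _ _)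
      have hcP : Nat.card P = Nat.card Q * X.index := by
        have := relIndex_mul_relIndex ⊥ (P ⊓ X) P bot_le inf_le_left
        rw [relIndex_bot_left, relIndex_bot_left, inf_relIndex_left, hXiP] at this
        exact this.symm
      have hQM : Q ≤ M := le_inf le_normalizer hQA
      have hQXM : PiN' π (Q.relIndex (X ⊓ M)) := by
        refine PiN'.of_dvd hcor ⟨(X ⊓ M).relIndex (normalizer (Q : Set G) ⊓ X), ?_⟩
        exact (relIndex_mul_relIndex Q (X ⊓ M) (normalizer (Q : Set G) ⊓ X) (le_inf hQX hQM)
          (le_inf (inf_le_right.trans inf_le_left) inf_le_left)).symm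
      have hcM : Nat.card M = (Nat.card Q * X.index) * Q.relIndex (X ⊓ M) := by
        have h1 := relIndex_mul_relIndex ⊥ (X ⊓ M) M bot_le inf_le_right
        have h2 := relIndex_mul_relIndex ⊥ Q (X ⊓ M) bot_le (le_inf hQX hQM)
        rw [relIndex_bot_left, relIndex_bot_left] at h1 h2
        rw [inf_relIndex_right, hXiM] at h1
        rw [← h1, ← h2]
        ring
      obtain ⟨P₂, -, hP₂⟩ := Finite.exists_le_maximal (p := IsPiSubgroup π) (a := (⊥ : Subgroup M))
        (fun p hp hd => by rw [Subgroup.card_bot] at hd; exact absurd (Nat.dvd_one.1 hd) hp.ne_one)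
      have n1 : (Q.subgroupOf M).Normal := (normal_subgroupOf_iff_le_normalizer hQM).mpr inf_le_left
      have hP₂h : IsPiHall π P₂ := by
        apply maximal_hall_of_chain (Q.subgroupOf M) (X.subgroupOf M) (subgroupOf_mono _ hQX)
        · rw [card_subgroupOf _ _ hQM]; exact hQπ
        · rw [← inf_subgroupOf_right X M, relIndex_subgroupOf inf_le_right]
          exact hQXM
        · have h1 : (X.subgroupOf M).index = X.index := hXiM
          rw [h1]; exact hXπ
        · exact hP₂
      have hcP₂ : Nat.card P₂ = Nat.card Q * X.index :=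
        mul_unique hP₂h.1 hP₂h.2 (hQπ.mul hXπ) hQXM (by rw [card_mul_index, hcM])
      set NQ := normalizer (Q : Set G) with hNQ
      have hQNQ : Q ≤ NQ := le_normalizer
      have n2 : (Q.subgroupOf NQ).Normal := (normal_subgroupOf_iff_le_normalizer hQNQ).mpr le_rfl
      have hQNX : PiN' π ((Q.subgroupOf NQ).relIndex (X.subgroupOf NQ)) := by
        rw [← inf_subgroupOf_right X NQ, relIndex_subgroupOf inf_le_right, inf_comm]
        exact hcor
      have hXNQ : PiN π (X.subgroupOf NQ).index := hXπ.of_dvd (relIndex_dvd_index_of_normal X NQ)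
      have hPNQ : IsPiHall π (P.subgroupOf NQ) := by
        apply maximal_hall_of_chain (Q.subgroupOf NQ) (X.subgroupOf NQ) (subgroupOf_mono _ hQX)
        · rw [card_subgroupOf _ _ hQNQ]; exact hQπ
        · exact hQNX
        · exact hXNQ
        · exact maximal_subgroupOf hP hPQ
      have hCNQ : IsCPiGroup π NQ := by
        apply cpi_of_chain (Q.subgroupOf NQ) (X.subgroupOf NQ) (subgroupOf_mono _ hQX)
        · rw [card_subgroupOf _ _ hQNQ]; exact hQπ
        · exact hQNX
        · exact hXNQ
      have hP₃ : P₂.map M.subtype ≤ NQ := (map_subtype_le P₂).trans inf_le_left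
      have hcP₃ : Nat.card (P₂.map M.subtype) = Nat.card P := by
        rw [card_map_of_injective M.subtype_injective, hcP₂, hcP]
      have hri : (P₂.map M.subtype).relIndex NQ = P.relIndex NQ := by
        have h1 := relIndex_mul_relIndex ⊥ (P₂.map M.subtype) NQ bot_le hP₃
        have h2 := relIndex_mul_relIndex ⊥ P NQ bot_le hPQ
        rw [relIndex_bot_left, relIndex_bot_left] at h1 h2
        rw [hcP₃, ← h2] at h1
        exact Nat.eq_of_mul_eq_mul_left Nat.card_pos h1
      obtain ⟨g, hg, hgP⟩ := conj_of_cpi (H := P₂.map M.subtype) (K := P) hCNQ hP₃ hPQ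
        (by rw [hcP₃]; exact hP.1) (by rw [hri]; exact hPNQ.2) hP.1 hPNQ.2
      refine ⟨MulAut.conj g • A, ?_, ?_, ?_, ?_⟩
      · rintro _ ⟨a, ha, rfl⟩
        exact hXn.conj_mem a (hAX ha) g
      · rw [card_conj_smul]; exact hA
      · have h1 : (MulAut.conj g • A).relIndex X = A.relIndex X := by
          have h2 : MulAut.conj g • A ≤ X := by
            rintro _ ⟨a, ha, rfl⟩
            exact hXn.conj_mem a (hAX ha) g
          have h3 := relIndex_mul_relIndex ⊥ (MulAut.conj g • A) X bot_le h2
          have h4 := relIndex_mul_relIndex ⊥ A X bot_le hAX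
          rw [relIndex_bot_left, relIndex_bot_left] at h3 h4
          rw [card_conj_smul, ← h4] at h3
          exact Nat.eq_of_mul_eq_mul_left Nat.card_pos h3
        rw [h1]; exact hA'
      · rw [← hgP, ← conj_eq, ← conj_eq]
        exact (map_mono ((map_subtype_le P₂).trans inf_le_right)).trans (le_normalizer_map _)
    · by_cases hN : X ≤ normalizer (Y : Set G)
      · -- quotient
        have hYn : Y.Normal := by
          rw [← normalizer_eq_top_iff]
          rw [← top_le_iff, ← hPX]
          exact sup_le hPY hN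
        have hcX : (X.map (QuotientGroup.mk' Y)).comap (QuotientGroup.mk' Y) = X := by
          rw [comap_map_eq, QuotientGroup.ker_mk', sup_of_le_left hYX]
        have hcard : Nat.card X = Nat.card Y * Nat.card (X.map (QuotientGroup.mk' Y)) := by
          rw [← card_comap_mk, hcX]
        have hlt : Nat.card (X.map (QuotientGroup.mk' Y)) < n := by
          have h1 : 1 < Nat.card Y := by
            have h2 : Nat.card Y ≠ 1 := fun h => hY1 (Subgroup.eq_bot_of_card_eq Y h)
            have h3 : 0 < Nat.card Y := Nat.card_pos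
            omega
          have h4 : 0 < Nat.card (X.map (QuotientGroup.mk' Y)) := Nat.card_pos
          rw [← hn, hcard]
          nlinarith
        have : (X.map (QuotientGroup.mk' Y)).Normal := Normal.map inferInstance _ (QuotientGroup.mk'_surjective Y)
        obtain ⟨B, hB1, hB2, hB3, hB4⟩ := ih _ hlt (G ⧸ Y) (X.map (QuotientGroup.mk' Y))
          (P.map (QuotientGroup.mk' Y)) rfl (ws_quotient hYX hτπ hYτ hW)
          (fun p hp hpπ hd => hprm p hp hpπ (hd.trans (card_map_dvd _ _)))
          (PiN.of_dvd hP.1 (card_map_dvd _ _)) (by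
            rw [← Subgroup.map_sup, hPX, map_top_of_surjective _ (QuotientGroup.mk'_surjective Y)])
          (by
            have e := QuotientGroup.quotientQuotientEquivQuotient Y X hYX
            exact Group.isSolvable_of_surjective (f := e.symm.toMonoidHom) e.symm.surjective)
        refine ⟨B.comap (QuotientGroup.mk' Y), (comap_mono hB1).trans hcX.le, ?_, ?_, ?_⟩
        · rw [card_comap_mk]; exact hYτ.mul hB2
        · rw [relIndex_comap]; exact hB3
        · rw [← comap_normalizer_eq_of_surjective _ (QuotientGroup.mk'_surjective Y)]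
          exact map_le_iff_le_comap.mp hB4
      · -- normaliser
        set N := normalizer (Y : Set G) ⊓ X with hNd
        set T := P ⊔ N with hTd
        have hNX : N ≤ X := inf_le_right
        have hAN : A ≤ N := by
          refine le_inf ?_ hAX
          rw [le_normalizer_iff]
          intro a ha y hy
          have h1 : a * y * a⁻¹ = y := by rw [hcomm a ha y hy.2, mul_inv_cancel_right]
          rw [h1]; exact hy
        have hPN : P ≤ normalizer (N : Set G) := by
          rw [le_normalizer_iff]
          intro p hp x hx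
          exact ⟨(normalizer (Y : Set G)).mul_mem ((normalizer (Y : Set G)).mul_mem (hPY hp) hx.1)
            ((normalizer (Y : Set G)).inv_mem (hPY hp)), hXn.conj_mem x hx.2 p⟩
        have hQN : Q ≤ N := le_inf (inf_le_left.trans hPY) hQX
        have hTX : T ⊓ X = N := by
          apply le_antisymm _ (le_inf le_sup_right hNX)
          intro t ht
          obtain ⟨p, hp, x, hx, rfl⟩ := mem_sup_of_le_normalizer hPN ht.1
          have h1 : p ∈ X := by
            have := X.mul_mem ht.2 (X.inv_mem (hNX hx))
            simpa using this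
          exact N.mul_mem (hQN ⟨hp, h1⟩) hx
        have hNT : N ≤ T := le_sup_right
        have hlt : Nat.card (X.subgroupOf T) < n := by
          have h1 : Nat.card (X.subgroupOf T) = Nat.card N := by
            rw [← card_map_of_injective T.subtype_injective, subgroupOf_map_subtype, inf_comm, hTX]
          rw [h1, ← hn]
          have h2 : N < X := lt_of_le_of_ne hNX fun h => hN (by rw [← h]; exact inf_le_left)
          exact Set.ncard_lt_ncard h2 (Set.toFinite _)
        have hsT : X.subgroupOf T = N.subgroupOf T := by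
          rw [← hTX, inf_subgroupOf_left]
        have hsolT : Group.IsSolvable (T ⧸ X.subgroupOf T) := by
          let f : T →* G ⧸ X := (QuotientGroup.mk' X).comp T.subtype
          have hk : f.ker = X.subgroupOf T := by
            rw [← MonoidHom.comap_ker, QuotientGroup.ker_mk']; rfl
          have h1 : Group.IsSolvable (T ⧸ f.ker) :=
            Group.isSolvable_of_isSolvable_injective (QuotientGroup.kerLift_injective f)
          have e : T ⧸ f.ker ≃* T ⧸ X.subgroupOf T := QuotientGroup.quotientMulEquivOfEq hk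
          exact Group.isSolvable_of_surjective (f := e.toMonoidHom) e.surjective
        have hWT : WS π τ (X.subgroupOf T) := by
          intro K hK hKπ
          have hK1 : K.map T.subtype ≤ N := by
            have := map_mono (f := T.subtype) hK
            rwa [subgroupOf_map_subtype, inf_comm, hTX] at this
          have hKY : K.map T.subtype ≤ normalizer (Y : Set G) := hK1.trans inf_le_left
          obtain ⟨B, hBX, hB, hB', hBc, hKB⟩ := hW (K.map T.subtype ⊔ Y) (sup_le (hK1.trans hNX) hYX)
            (piN_sup hKY (by rw [card_map_of_injective T.subtype_injective]; exact hKπ)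
              (fun p hp hd => hτπ (hYτ p hp hd)))
          have hYB : Y ≤ B := le_hall hB' hBX hYX hYτ (le_sup_right.trans hKB)
          have hBN : B ≤ N := by
            refine le_inf ?_ hBX
            rw [le_normalizer_iff]
            intro a ha y hy
            have h1 : a * y * a⁻¹ = y := by rw [hBc a ha y (hYB hy), mul_inv_cancel_right]
            rw [h1]; exact hy
          have hBT : B ≤ T := hBN.trans hNT
          refine ⟨B.subgroupOf T, subgroupOf_mono _ hBX, ?_, ?_, ?_, ?_⟩
          · rw [card_subgroupOf _ _ hBT]; exact hB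
          · rw [hsT, relIndex_subgroupOf hNT]
            refine hB'.of_dvd ⟨N.relIndex X, (relIndex_mul_relIndex B N X hBN hNX).symm⟩
          · intro a ha b hb
            exact Subtype.ext (hBc a ha b hb)
          · intro k hk
            have h1 : (k : G) ∈ normalizer (B : Set G) := hKB (mem_sup_left ⟨k, hk, rfl⟩)
            rw [mem_normalizer_iff] at h1 ⊢
            intro b
            exact h1 (b : G)
        obtain ⟨B, hB1, hB2, hB3, hB4⟩ := ih _ hlt T (X.subgroupOf T) (P.subgroupOf T) rfl hWT
          (fun p hp hpπ hd => hprm p hp hpπ (by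
            rw [← card_map_of_injective T.subtype_injective, subgroupOf_map_subtype] at hd
            exact hd.trans (card_dvd_of_le inf_le_left)))
          (by rw [card_subgroupOf _ _ le_sup_left]; exact hP.1)
          (by
            rw [hsT, ← Subgroup.subgroupOf_sup le_sup_left hNT]
            exact Subgroup.subgroupOf_self _)
          hsolT
        have hB5 : B.map T.subtype ≤ N := by
          have := map_mono (f := T.subtype) hB1
          rwa [subgroupOf_map_subtype, inf_comm, hTX] at this
        refine ⟨B.map T.subtype, hB5.trans hNX, ?_, ?_, ?_⟩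
        · rw [card_map_of_injective T.subtype_injective]; exact hB2
        · rw [← relIndex_mul_relIndex _ N X hB5 hNX]
          refine PiN'.mul ?_ (hA'.of_dvd ⟨A.relIndex N, by
            rw [mul_comm]; exact (relIndex_mul_relIndex A N X hAN hNX).symm⟩)
          rw [hsT] at hB3
          rw [← relIndex_subgroupOf hNT, subgroupOf, comap_map_eq_self_of_injective T.subtype_injective]
          exact hB3
        · have h1 := map_mono (f := T.subtype) hB4
          rw [subgroupOf_map_subtype, inf_of_le_left (le_sup_left : P ≤ T)] at h1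
          exact h1.trans (le_normalizer_map _)

end core

end Cfsg.Agent.H553.RV
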